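import Cfsg.Agent.H368.SEnd
import Cfsg.Agent.H368.SFacts
import Cfsg.Agent.H368.SExc
import Cfsg.Agent.H368.SOrdFour
import Cfsg.Agent.EvenType.ChevTwoF4
import Cfsg.Agent.Lib.Zsigmondy
import Cfsg.Agent.S0205
import Cfsg.Agent.S1072
import Cfsg.Agent.S3429

/-!
# Large Ree groups: recognition by order and spectrum
-/

set_option autoImplicit false

open Subgroup Cfsg Cfsg.Agent

namespace Cfsg.Agent.H368.STwoF4

open Cfsg.Agent.H368.SNum Cfsg.Agent.H368.SEnd Cfsg.Agent.H368.SRed Cfsg.Agent.H366.Coclique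
  Cfsg.Agent.H368.SCtx

theorem even_card {L : Type*} [Group L] [Finite L] (hL : IsSimpleGroup L)
    (hna : ¬ IsMulCommutative L) : 2 ∣ Nat.card L := by
  rw [← even_iff_two_dvd]
  by_contra h
  have hsol : Group.IsSolvable L := S0205.result (Nat.not_even_iff_odd.1 h)
  exact hna ⟨⟨IsSimpleGroup.comm_iff_isSolvable.mpr hsol⟩⟩

/-- the number of elements of a finite field of characteristic 2 -/
theorem card_two (F : Type) [Field F] [Fintype F] [CharP F 2] : ∃ k, 1 ≤ k ∧ Fintype.card F = 2 ^ k := by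
  obtain ⟨n, -, hn⟩ := FiniteField.card F 2
  exact ⟨n, n.pos, hn⟩

theorem card_two_pow (F : Type) [Field F] [Fintype F] [CharP F 2] {q a : ℕ} (ha : a ≠ 0)
    (h : Fintype.card F = q ^ a) : ∃ k, 1 ≤ k ∧ q = 2 ^ k := by
  obtain ⟨n, hn0, hn⟩ := card_two F
  have h1 : q ∣ 2 ^ n := by rw [← hn, h]; exact dvd_pow_self q ha
  obtain ⟨k, -, hk⟩ := (Nat.dvd_prime_pow Nat.prime_two).1 h1
  refine ⟨k, ?_, hk⟩
  rcases Nat.eq_zero_or_pos k with h0 | h0
  · exfalso
    rw [h0, pow_zero] at hk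
    rw [hk, one_pow] at h
    have := Fintype.one_lt_card (α := F)
    omega
  · exact h0

/-- groups of Lie type in characteristic 2 -/
theorem lie_two {f r : ℕ} {S : Type*} [Group S] [Finite S] (h : Ctx f r (Nat.card S))
    (hL : IsLieTypeChar 2 S) : Lie.Iso2F4 S := by
  rcases hL with hL | hL | hL | hL | hL | hL | hL | hL | ⟨-, hL⟩ | ⟨-, hL⟩ | ⟨h2, -⟩
  · exfalso
    obtain ⟨F, i1, i2, i3, n, hn, -, ⟨e⟩⟩ := hL
    obtain ⟨k, hk, hF⟩ := card_two F
    have h1 := H365.CubeF.psl_eq (F := F) hn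
    rw [← Nat.card_congr e.toEquiv, hF] at h1
    exact h.psl hk hn h1
  · exfalso
    obtain ⟨F, i1, i2, i3, n, hn, -, ⟨e⟩⟩ := hL
    obtain ⟨k, hk, hF⟩ := card_two F
    have h1 := H365.CubeF.psp_eq (F := F) (m := n) (by omega)
    rw [← Nat.card_congr e.toEquiv, hF] at h1
    exact h.psp hk hn h1
  · exfalso
    obtain ⟨F, i1, i2, i3, n, q, hF, hn, -, ⟨e⟩⟩ := hL
    obtain ⟨k, hk, rfl⟩ := card_two_pow F (by norm_num) hF
    have h1 := H365.CubeF.psu_eq (F := F) hF (n := n) (by omega)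
    rw [← Nat.card_congr e.toEquiv] at h1
    exact h.psu hk hn h1
  · exfalso
    obtain ⟨F, i1, i2, i3, n, hn, ho, -⟩ := hL
    obtain ⟨k, hk, hF⟩ := card_two F
    rw [hF, Nat.odd_iff] at ho
    have := pow_two_mod hk
    omega
  · exfalso
    obtain ⟨F, i1, i2, i3, n, hn, ⟨e⟩⟩ := hL
    obtain ⟨k, hk, hF⟩ := card_two F
    have h1 := H365.CubeF.oplus_eq (F := F) hn
    rw [← Nat.card_congr e.toEquiv, hF] at h1
    refine h.orth hk hn ?_ (Or.inl rfl) h1
    intro h2
    exact odd_pow_sub hk (by omega) (h2.trans (Nat.gcd_dvd_right _ _))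
  · exfalso
    obtain ⟨F, i1, i2, i3, n, a, b, hn, hab, ⟨e⟩⟩ := hL
    obtain ⟨k, hk, hF⟩ := card_two F
    have h1 := H365.CubeF.ominus_eq (F := F) hn a b hab
    rw [← Nat.card_congr e.toEquiv, hF] at h1
    refine h.orth hk hn ?_ (Or.inr rfl) h1
    intro h2
    exact odd_pow_add hk (by omega) (h2.trans (Nat.gcd_dvd_right _ _))
  · exfalso
    obtain ⟨F, i1, i2, i3, hL⟩ := hL
    obtain ⟨k, hk, hF⟩ := card_two F
    rcases hL with ⟨-, ⟨e⟩⟩ | hL | hL | hL | hL
    · have h1 := OrdDiv.table.{0}.g2 F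
      rw [← Nat.card_congr e.toEquiv, hF] at h1
      exact h.g2 hk h1
    · obtain ⟨e⟩ := hL
      have h1 := OrdDiv.table.{0}.f4 F _ hF
      rw [← Nat.card_congr e.toEquiv] at h1
      exact h.f4 hk h1
    · obtain ⟨e⟩ := hL
      have h1 := OrdDiv.table.{0}.e6 F _ hF
      rw [← Nat.card_congr e.toEquiv] at h1
      exact h.e6 hk h1
    · obtain ⟨e⟩ := hL
      have h1 := OrdDiv.table.{0}.e7 F _ hF
      rw [← Nat.card_congr e.toEquiv] at h1
      exact h.e7 hk h1
    · obtain ⟨e⟩ := hL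
      have h1 := OrdDiv.table.{0}.e8 F _ hF
      rw [← Nat.card_congr e.toEquiv] at h1
      exact h.e8 hk h1
  · exfalso
    obtain ⟨F, i1, i2, i3, q, hq, hL⟩ := hL
    rcases hL with ⟨hF, ⟨e⟩⟩ | ⟨hF, ⟨e⟩⟩
    · obtain ⟨k, hk, rfl⟩ := card_two_pow F (by norm_num) hF
      have h1 := OrdDiv.table.{0}.te6 F _ hq hF
      rw [← Nat.card_congr e.toEquiv] at h1
      exact h.te6 hk h1
    · obtain ⟨k, hk, rfl⟩ := card_two_pow F (by norm_num) hF
      have h1 := OrdDiv.table.{0}.td4 F _ hq hF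
      rw [← Nat.card_congr e.toEquiv] at h1
      exact h.td4 hk h1
  · exfalso
    obtain ⟨F, i1, i2, m, hm, hF, ⟨e⟩⟩ := hL
    have h1 := OrdDiv.table.{0}.sz F m hm hF
    rw [← Nat.card_congr e.toEquiv] at h1
    exact h.sz (k := 2 * m + 1) (by omega) h1
  · exact hL
  · omega

/-- `2 ^ s` divides a product of three consecutive numbers -/
theorem pow_le_of_dvd {x s : ℕ} (hx : 2 ≤ x) (h : 2 ^ s ∣ x * (x ^ 2 - 1)) : 2 ^ s ≤ 2 * (x + 1) := by
  rcases Nat.even_or_odd x with he | ho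
  · have h1 : ¬ 2 ∣ x ^ 2 - 1 := by
      obtain ⟨y, hy⟩ := he
      have h2 : x ^ 2 = 2 * (y * x) := by rw [pow_two]; nth_rw 1 [hy]; ring
      have h3 : 1 ≤ y * x := Nat.mul_pos (by omega) (by omega)
      omega
    have h2 : 2 ^ s ∣ x := ((Nat.Coprime.pow_left _ ((Nat.Prime.coprime_iff_not_dvd Nat.prime_two).2 h1))).dvd_of_dvd_mul_right h
    have := Nat.le_of_dvd (by omega) h2
    omega
  · have h1 : ¬ 2 ∣ x := by
      rw [Nat.odd_iff] at ho
      omega
    have h2 : 2 ^ s ∣ x ^ 2 - 1 :=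
      ((Nat.Coprime.pow_left _ ((Nat.Prime.coprime_iff_not_dvd Nat.prime_two).2 h1))).dvd_of_dvd_mul_left h
    rw [SNum.sub_mul] at h2
    rcases Nat.eq_zero_or_pos s with h0 | h0
    · rw [h0]; omega
    obtain ⟨t, rfl⟩ : ∃ t, s = t + 1 := ⟨s - 1, by omega⟩
    rw [Nat.odd_iff] at ho
    rcases (by omega : x % 4 = 1 ∨ x % 4 = 3) with h3 | h3
    · obtain ⟨y, hy⟩ : ∃ y, x + 1 = 2 * (2 * y + 1) := ⟨(x - 1) / 4, by omega⟩
      rw [hy, pow_succ, ← mul_assoc, mul_comm (x - 1) 2, mul_assoc, mul_comm (2 ^ t) 2] at h2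
      have h4 := Nat.dvd_of_mul_dvd_mul_left (by norm_num) h2
      have h5 : ¬ 2 ∣ 2 * y + 1 := by omega
      have h6 : 2 ^ t ∣ x - 1 :=
        ((Nat.Coprime.pow_left _ ((Nat.Prime.coprime_iff_not_dvd Nat.prime_two).2 h5))).dvd_of_dvd_mul_right h4
      have h7 := Nat.le_of_dvd (by omega) h6
      rw [pow_succ]
      omega
    · obtain ⟨y, hy⟩ : ∃ y, x - 1 = 2 * (2 * y + 1) := ⟨(x - 3) / 4, by omega⟩
      rw [hy, pow_succ, mul_comm (2 ^ t) 2, mul_assoc] at h2
      have h4 := Nat.dvd_of_mul_dvd_mul_left (by norm_num) h2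
      have h5 : ¬ 2 ∣ 2 * y + 1 := by omega
      have h6 : 2 ^ t ∣ x + 1 :=
        ((Nat.Coprime.pow_left _ ((Nat.Prime.coprime_iff_not_dvd Nat.prime_two).2 h5))).dvd_of_dvd_mul_left h4
      have h7 := Nat.le_of_dvd (by omega) h6
      rw [pow_succ]
      omega

/-- the small groups of the list -/
theorem small_false {f r S : ℕ} (h : Ctx f r S) {N : ℕ} (hS : S = N) (hN : ¬ 2 ^ 24 ∣ N) : False := by
  apply hN
  rw [← hS, Nat.prime_two.pow_dvd_iff_le_factorization h.S0]
  have := h.lo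
  have := h.f3
  omega

theorem card_alt_small {S : Type*} [Group S] [Finite S] {n : ℕ} (hn : 2 ≤ n) (hn' : n ≤ 10)
    (e : S ≃* ↥(alternatingGroup (Fin n))) : Nat.card S < 2 ^ 24 := by
  have h1 : Nat.card S * 2 = n.factorial := by
    have : Nontrivial (Fin n) := Fin.nontrivial_iff_two_le.2 hn
    have h2 := two_mul_card_alternatingGroup (α := Fin n)
    rw [Fintype.card_perm, Fintype.card_fin] at h2
    rw [Nat.card_congr e.toEquiv, Nat.card_eq_fintype_card, mul_comm]
    convert h2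
  have h3 : n.factorial ≤ (10).factorial := Nat.factorial_le hn'
  have h4 : (10).factorial = 3628800 := by decide
  omega

theorem twoF4 {G M : Type*} [Group G] [Finite G] [Group M] [Finite M] (hM : Lie.Iso2F4 M)
    (hs : ∀ g : G, ∃ x : M, orderOf x = orderOf g) (hs' : ∀ x : M, ∃ g : G, orderOf g = orderOf x)
    (hc : Nat.card G = Nat.card M) : Nonempty (G ≃* M) := by
  obtain ⟨m, hm, ⟨F, iF, iF', hF, ⟨e⟩⟩, hcM, h2M⟩ := card_twoF4 hM
  have hsimp := S1072.result hm hF
  have hMs : IsSimpleGroup M := by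
    have := hsimp.1
    exact e.isSimpleGroup
  have hMna : ¬ IsMulCommutative M := by
    intro h
    apply hsimp.2
    refine ⟨⟨fun a b => ?_⟩⟩
    apply e.symm.injective
    rw [map_mul, map_mul]
    exact h.is_comm.comm _ _
  obtain ⟨x4, hx4⟩ := SOrdFour.exists_four hMna hM
  set f := 2 * m + 1 with hf
  set q := 2 ^ f with hq
  have hf3 : 3 ≤ f := by omega
  have hq8 : 8 ≤ q := by
    calc 8 = 2 ^ 3 := rfl
      _ ≤ 2 ^ f := Nat.pow_le_pow_right (by norm_num) hf3
  obtain ⟨r, hr, hprim, hr1, hr2⟩ := Lib.Zsigmondy.exists_primitive (a := 2) (n := 12 * f)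
    le_rfl (by omega) (by omega) (by omega)
  have hprim' : ∀ k, r ∣ 2 ^ k - 1 → 12 * f ∣ k := fun k => (hprim k).1
  have hrne2 : r ≠ 2 := by rintro rfl; exact hr2 dvd_rfl
  have hr37 : 37 ≤ r := by
    have h1 := Nat.le_of_dvd (by have := hr.two_le; omega) hr1
    omega
  -- `r` divides `q ^ 4 - q ^ 2 + 1`
  have hfact : q ^ 6 + 1 = (q ^ 2 + 1) * (q ^ 4 - q ^ 2 + 1) := by
    obtain ⟨c, hc⟩ : ∃ c, q ^ 2 = c + 1 := ⟨q ^ 2 - 1, by
      have : 0 < q ^ 2 := by positivity
      omega⟩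
    have h4 : q ^ 4 = (q ^ 2) ^ 2 := by ring
    have h6 : q ^ 6 = (q ^ 2) ^ 3 := by ring
    rw [h4, h6, hc, show (c + 1) ^ 2 - (c + 1) + 1 = c ^ 2 + c + 1 by
      have : (c + 1) ^ 2 = c ^ 2 + c + (c + 1) := by ring
      omega]
    ring
  have hq2e : q ^ 2 + 1 = 2 ^ (2 * f) + 1 := by rw [hq, ← pow_mul, mul_comm 2]
  have hq3e : q ^ 3 + 1 = 2 ^ (3 * f) + 1 := by rw [hq, ← pow_mul, mul_comm 3]
  have hq4e : q ^ 4 - 1 = 2 ^ (4 * f) - 1 := by rw [hq, ← pow_mul, mul_comm 4]
  have hrq : ¬ r ∣ 2 ^ (12 * f) * (q - 1) * (q ^ 3 + 1) * (q ^ 4 - 1) * (q ^ 2 + 1) := by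
    rw [Nat.Prime.dvd_mul hr, Nat.Prime.dvd_mul hr, Nat.Prime.dvd_mul hr, Nat.Prime.dvd_mul hr]
    rintro ((((h | h) | h) | h) | h)
    · exact hr2 (hr.dvd_of_dvd_pow h)
    · exact not_dvd_sub hprim' (by omega) (by omega) h
    · rw [hq3e] at h
      exact not_dvd_add hprim' (by omega) (by omega) h
    · rw [hq4e] at h
      exact not_dvd_sub hprim' (by omega) (by omega) h
    · rw [hq2e] at h
      exact not_dvd_add hprim' (by omega) (by omega) h
  have hcM' : Nat.card M =
      (2 ^ (12 * f) * (q - 1) * (q ^ 3 + 1) * (q ^ 4 - 1) * (q ^ 2 + 1)) * (q ^ 4 - q ^ 2 + 1) := by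
    rw [hcM, hfact]; ring
  have hrdvd6 : r ∣ q ^ 6 + 1 := by
    have h1 : r ∣ 2 ^ (12 * f) - 1 := (hprim _).2 dvd_rfl
    have h2 : 2 ^ (12 * f) - 1 = (2 ^ (6 * f) - 1) * (q ^ 6 + 1) := by
      rw [show 12 * f = (6 * f) * 2 by ring, pow_mul, SNum.sub_mul, hq, ← pow_mul, mul_comm f 6]
    rw [h2] at h1
    exact ((Nat.Prime.dvd_mul hr).1 h1).resolve_left (not_dvd_sub hprim' (by omega) (by omega))
  have hrdvd : r ∣ Nat.card M := by
    rw [hcM]
    exact dvd_mul_of_dvd_right (dvd_mul_of_dvd_right hrdvd6 _) _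
  have hfac : r ^ (Nat.card M).factorization r ∣ q ^ 4 - q ^ 2 + 1 := part_dvd hr hcM' hrq
  have hfac' : r ^ (Nat.card M).factorization r ≤ q ^ 4 := by
    have h1 := Nat.le_of_dvd (by omega) hfac
    have h2 : q ^ 2 ≤ q ^ 4 := Nat.pow_le_pow_right (by omega) (by norm_num)
    have h3 : 0 < q ^ 2 := by positivity
    omega
  have hN : SRed.Num {2} r (Nat.card M).factorization :=
    { prime := by rintro p rfl; exact Nat.prime_two
      rprime := hr
      notMem := by simpa using hrne2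
      pos := (hr.dvd_iff_one_le_factorization Nat.card_pos.ne').1 hrdvd
      big := by
        refine ⟨2, rfl, ?_⟩
        rw [h2M, mul_comm 12, pow_mul, ← hq]
        exact hfac'.trans (Nat.pow_le_pow_right (by omega) (by norm_num)) }
  have hnaM : NA M 2 r := SFacts.na_of_char2 (EvenType.ChevTwoF4.charTwo hM) hr hrne2 hprim' h2M.le
  have hH : Hyp {2} r (Nat.card M).factorization G :=
    { pow := fun l _ => by rw [hc]
      na := by
        rintro p rfl g hg
        obtain ⟨x, hx⟩ := hs g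
        exact hnaM x (hx.trans hg)
      sq := by
        rintro p rfl k hk1 hk2 hk3
        have h1 := Nat.le_of_dvd (by omega) (hprim' k hk3)
        refine ⟨by omega, ?_⟩
        obtain ⟨g, hg⟩ := hs' x4
        exact ⟨g, by rw [hg, hx4]; norm_num⟩ }
  obtain ⟨R, hRn, hRd, hHR, S, hSn, hSs, hSna, hSc⟩ := hH.exists_simple hN rfl (by omega)
  have hrS : r ∣ Nat.card S := hHR.dvd_normal hN S rfl (even_card hSs hSna)
  have hidx := hHR.pow_index hN S hrS (p := 2) rfl
  have h2S : (Nat.card S).factorization 2 + S.index.factorization 2 = 12 * f := by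
    rw [← h2M, ← hHR.pow 2 (Or.inl rfl), ← Subgroup.card_mul_index S,
      Nat.factorization_mul Nat.card_pos.ne' S.index_ne_zero_of_finite, Finsupp.add_apply]
  have h2i : S.index.factorization 2 < 4 * f := by
    have h1 : 2 ^ S.index.factorization 2 < 2 ^ (4 * f) := by
      rw [mul_comm 4, pow_mul, ← hq]
      exact hidx.trans_le hfac'
    exact (Nat.pow_lt_pow_iff_right (by norm_num)).1 h1
  -- sizes
  have hM'lt : (q - 1) * (q ^ 3 + 1) * (q ^ 4 - 1) * (q ^ 6 + 1) < 2 ^ (14 * f) := by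
    have h1 := SOrdFour.size (q := q) (by omega)
    have h2 : q ^ 14 = 2 ^ (14 * f) := by rw [hq, ← pow_mul, mul_comm f 14]
    rwa [h2] at h1
  have hSdvd : Nat.card S * S.index ∣ Nat.card M := by
    rw [Subgroup.card_mul_index, ← hc]
    exact Subgroup.card_quotient_dvd_card R
  have hSle : Nat.card S * S.index ≤ Nat.card M := Nat.le_of_dvd Nat.card_pos hSdvd
  have hctx : Ctx f r (Nat.card S) :=
    { f3 := hf3
      rp := hr
      r2 := hr2
      prim := hprim'
      rS := hrS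
      S0 := Nat.card_pos.ne'
      lo := by omega
      hi := by omega
      size := by
        refine ⟨_, ?_, hM'lt⟩
        rw [← hcM]
        exact (Nat.le_mul_of_pos_right _ (Nat.pos_of_ne_zero S.index_ne_zero_of_finite)).trans hSle }
  have hcube : Nat.card S < 2 ^ (3 * (Nat.card S).factorization 2) := by
    have h1 : 2 ^ S.index.factorization 2 ≤ S.index :=
      Nat.le_of_dvd (Nat.pos_of_ne_zero S.index_ne_zero_of_finite) (Nat.ordProj_dvd _ _)
    have h2 : Nat.card S * 2 ^ S.index.factorization 2 < 2 ^ (12 * f) * 2 ^ (14 * f) := by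
      calc Nat.card S * 2 ^ S.index.factorization 2 ≤ Nat.card S * S.index := Nat.mul_le_mul_left _ h1
        _ ≤ Nat.card M := hSle
        _ = 2 ^ (12 * f) * ((q - 1) * (q ^ 3 + 1) * (q ^ 4 - 1) * (q ^ 6 + 1)) := hcM
        _ < _ := Nat.mul_lt_mul_of_pos_left hM'lt (by positivity)
    have h3 : 2 ^ (12 * f) * 2 ^ (14 * f) ≤
        2 ^ (3 * (Nat.card S).factorization 2) * 2 ^ S.index.factorization 2 := by
      rw [← pow_add, ← pow_add]
      exact Nat.pow_le_pow_right (by norm_num) (by omega)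
    exact Nat.lt_of_mul_lt_mul_right (h2.trans_le h3)
  have hsmall : ¬ Nat.card S < 2 ^ 24 := by
    intro h1
    have h2 : 2 ^ 24 ∣ Nat.card S := by
      rw [Nat.prime_two.pow_dvd_iff_le_factorization Nat.card_pos.ne']
      omega
    have := Nat.le_of_dvd Nat.card_pos h2
    omega
  have hfin : Lie.Iso2F4 S → Nonempty (G ≃* M) := by
    intro hS
    obtain ⟨n, hn, ⟨K, iK, iK', hK, ⟨e'⟩⟩, hcS, h2S'⟩ := card_twoF4 hS
    have h1 : 2 * n + 1 = f := by
      apply hctx.tf4 (by omega)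
      rw [hcS, mul_comm 12, pow_mul]
      ring
    obtain ⟨h9, ⟨f1⟩⟩ := twoF4_iso hM hS (by omega)
    obtain ⟨f'⟩ := equiv_of_card R S (h9.trans hc.symm)
    exact ⟨f'.trans f1⟩
  rcases S3429.result hSna hcube with h | h | h | h | h | h | h | h | h | h | h | h | h | h | h | h | h | h | h | h
  · exact hfin (lie_two hctx h)
  · exact (small_false hctx (NotCT.Orders.tits h) (by norm_num)).elim
  · -- `PSL(2, p)`
    exfalso
    obtain ⟨K, iK, iK', hKp, -, ⟨e'⟩⟩ := h
    have h1 := ClassicalGeometry.PSL2Basic.card_PSL2_gcd (F := K)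
    rw [← Nat.card_congr e'.toEquiv] at h1
    have hpp := hKp.two_le
    have h2 : 2 ^ (Nat.card S).factorization 2 ≤ 2 * (Fintype.card K + 1) := by
      apply pow_le_of_dvd hpp
      rw [← h1]
      exact Dvd.dvd.mul_right (Nat.ordProj_dvd _ _) _
    have h3 : Fintype.card K ∣ Nat.card M := by
      have h4 : Fintype.card K ∣ Nat.card S * Nat.gcd 2 (Fintype.card K - 1) := by
        rw [h1]; exact Dvd.intro _ rfl
      rcases (Nat.Prime.dvd_mul hKp).1 h4 with h5 | h5
      · exact h5.trans ((Dvd.intro _ rfl).trans hSdvd)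
      · have h6 := h5.trans (Nat.gcd_dvd_left _ _)
        refine h6.trans ?_
        rw [hcM]
        exact dvd_mul_of_dvd_left (dvd_pow_self 2 (by omega)) _
    have h4 : Fintype.card K ≤ q ^ 6 + 1 := by
      rw [hcM] at h3
      have hk : ∀ a, q ^ 0 ≤ q ^ a := fun a => Nat.pow_le_pow_right (by omega) (Nat.zero_le _)
      have h31 : q ^ 3 ≤ q ^ 6 := Nat.pow_le_pow_right (by omega) (by norm_num)
      have h41 : q ^ 4 ≤ q ^ 6 := Nat.pow_le_pow_right (by omega) (by norm_num)
      have h11 : q ≤ q ^ 6 := Nat.le_self_pow (by norm_num) q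
      have h44 : q ≤ q ^ 4 := Nat.le_self_pow (by norm_num) q
      rcases (Nat.Prime.dvd_mul hKp).1 h3 with h5 | h5
      · have := Nat.le_of_dvd (by norm_num) (hKp.dvd_of_dvd_pow h5)
        omega
      · rcases (Nat.Prime.dvd_mul hKp).1 h5 with h5 | h5
        · rcases (Nat.Prime.dvd_mul hKp).1 h5 with h5 | h5
          · rcases (Nat.Prime.dvd_mul hKp).1 h5 with h5 | h5
            · have := Nat.le_of_dvd (by omega) h5
              omega
            · have := Nat.le_of_dvd (by omega) h5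
              omega
          · have := Nat.le_of_dvd (by omega) h5
            omega
        · exact Nat.le_of_dvd (by omega) h5
    have h5 : 2 ^ (8 * f + 1) ≤ 2 ^ (Nat.card S).factorization 2 :=
      Nat.pow_le_pow_right (by norm_num) hctx.lo
    have h6 : 2 ^ (8 * f + 1) = 2 * (q ^ 2 * q ^ 6) := by
      rw [hq, ← pow_mul, ← pow_mul, ← pow_add, ← pow_succ']
      congr 1
      ring
    have h7 : 64 * q ^ 6 ≤ q ^ 2 * q ^ 6 := by
      apply Nat.mul_le_mul_right
      calc 64 = 8 ^ 2 := by norm_num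
        _ ≤ q ^ 2 := Nat.pow_le_pow_left hq8 2
    have h8 : 0 < q ^ 6 := by positivity
    omega
  · obtain ⟨e'⟩ := h
    exact (hsmall (card_alt_small (by norm_num) (by norm_num) e')).elim
  · obtain ⟨e'⟩ := h
    exact (hsmall (card_alt_small (by norm_num) (by norm_num) e')).elim
  · obtain ⟨e'⟩ := h
    exact (hsmall (card_alt_small (by norm_num) (by norm_num) e')).elim
  · obtain ⟨e'⟩ := h
    exact (hsmall (card_alt_small (by norm_num) (by norm_num) e')).elim
  · obtain ⟨K, iK, iK', hK, ⟨e'⟩⟩ := h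
    exfalso
    have h1 := H365.CubeF.psu_eq (F := K) (q := 3) (n := 3) (by rw [hK]; norm_num) (by norm_num)
    rw [← Nat.card_congr e'.toEquiv] at h1
    have h2 : H365.CubeU.sU 3 (3 - 1) = 6048 := by
      simp [H365.CubeU.sU, H365.PPart.emn, Finset.prod_range_succ, Nat.even_iff]
    rw [h2] at h1
    norm_num at h1
    omega
  · obtain ⟨K, iK, iK', hK, ⟨e'⟩⟩ := h
    exfalso
    have h1 := H365.CubeF.psu_eq (F := K) (q := 4) (n := 3) (by rw [hK]; norm_num) (by norm_num)
    rw [← Nat.card_congr e'.toEquiv] at h1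
    have h2 : H365.CubeU.sU 4 (3 - 1) = 62400 := by
      simp [H365.CubeU.sU, H365.PPart.emn, Finset.prod_range_succ, Nat.even_iff]
    rw [h2] at h1
    norm_num at h1
    omega
  · exact (small_false hctx (NotCT.Orders.m12 h) (by norm_num)).elim
  · exact (small_false hctx (NotCT.Orders.m22 h) (by norm_num)).elim
  · exact (small_false hctx (NotCT.Orders.m24 h) (by norm_num)).elim
  · exact (small_false hctx (NotCT.Orders.j2 h) (by norm_num)).elim
  · exact (small_false hctx (NotCT.Orders.hs h) (by norm_num)).elim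
  · exact (small_false hctx (NotCT.Orders.suz h) (by norm_num)).elim
  · exact (small_false hctx (NotCT.Orders.ru h) (by norm_num)).elim
  · exact (small_false hctx (NotCT.Orders.fi22 h) (by norm_num)).elim
  · exact (small_false hctx (NotCT.Orders.co2 h) (by norm_num)).elim
  · exact (small_false hctx (NotCT.Orders.co1 h) (by norm_num)).elim
  · exfalso
    rw [NotCT.Orders.b h, show 4154781481226426191177580544000000 =
      2 ^ 41 * 3 ^ 13 * 5 ^ 6 * 7 ^ 2 * 11 * 13 * 17 * 19 * 23 * 31 * 47 by norm_num] at hrS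
    have h12 : 12 ∣ r - 1 := (Dvd.intro _ rfl).trans hr1
    have hdiv : ∀ p, p.Prime → r ∣ p → r = p := fun p hp h => (Nat.prime_dvd_prime_iff_eq hr hp).1 h
    rcases (Nat.Prime.dvd_mul hr).1 hrS with h | h
    · rcases (Nat.Prime.dvd_mul hr).1 h with h | h
      · rcases (Nat.Prime.dvd_mul hr).1 h with h | h
        · rcases (Nat.Prime.dvd_mul hr).1 h with h | h
          · rcases (Nat.Prime.dvd_mul hr).1 h with h | h
            · rcases (Nat.Prime.dvd_mul hr).1 h with h | h
              · rcases (Nat.Prime.dvd_mul hr).1 h with h | h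
                · rcases (Nat.Prime.dvd_mul hr).1 h with h | h
                  · rcases (Nat.Prime.dvd_mul hr).1 h with h | h
                    · rcases (Nat.Prime.dvd_mul hr).1 h with h | h
                      · have := Nat.le_of_dvd (by norm_num) (hr.dvd_of_dvd_pow h); omega
                      · have := Nat.le_of_dvd (by norm_num) (hr.dvd_of_dvd_pow h); omega
                    · have := Nat.le_of_dvd (by norm_num) (hr.dvd_of_dvd_pow h); omega
                  · have := Nat.le_of_dvd (by norm_num) (hr.dvd_of_dvd_pow h); omega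
                · have := Nat.le_of_dvd (by norm_num) h; omega
              · have := Nat.le_of_dvd (by norm_num) h; omega
            · have := Nat.le_of_dvd (by norm_num) h; omega
          · have := Nat.le_of_dvd (by norm_num) h; omega
        · have := Nat.le_of_dvd (by norm_num) h; omega
      · have := Nat.le_of_dvd (by norm_num) h; omega
    · have h9 := hdiv 47 (by norm_num) h
      rw [h9] at h12
      omega

end Cfsg.Agent.H368.STwoF4
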